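import Cfsg.Agent.PiClosed.Basic
import Cfsg.Agent.Suzuki.OddSubgroups
import Cfsg.Agent.Suzuki.Simple
import Cfsg.Agent.Suzuki.LieModel
import Mathlib.GroupTheory.Transfer

/-!
Groups homogeneous for a set of primes containing `2` are closed as soon as no non-abelian simple section
obstructs it; the Suzuki groups are not homogeneous.
-/

set_option autoImplicit false
set_option linter.style.haveILetI false

namespace CfsgLib.PiHomogThree83

open CfsgLib.PiClosed

universe u

variable {G : Type u} [Group G] {σ : Set ℕ}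

theorem homog_equiv {G' : Type*} [Group G'] (e : G ≃* G') (h : Homog σ G) : Homog σ G' := by
  intro H hH x hx hxo
  have hcard : Nat.card (H.comap e.toMonoidHom) = Nat.card H := by
    refine Nat.card_congr ⟨fun y => ⟨e y, y.2⟩, fun y => ⟨e.symm y, by simp [Subgroup.mem_comap]⟩,
      fun y => Subtype.ext (e.symm_apply_apply _), fun y => Subtype.ext (e.apply_symm_apply _)⟩
  have h1 := h (H.comap e.toMonoidHom) (by rwa [hcard]) (e.symm x) ?_ (by rwa [MulEquiv.orderOf_eq])
  · rw [Subgroup.mem_centralizer_iff] at h1 ⊢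
    intro y hy
    apply e.symm.injective
    simpa only [map_mul] using h1 (e.symm y) (by simpa [Subgroup.mem_comap] using hy)
  · rw [Subgroup.mem_normalizer_iff] at hx ⊢
    intro y
    simpa [Subgroup.mem_comap] using hx (e y)

/-- A quotient by a central `σ'`-subgroup is homogeneous. -/
theorem homog_quotient_central [Finite G] (h : Homog σ G) (K : Subgroup G) [K.Normal]
    (hK : CoNat σ (Nat.card K)) : Homog σ (G ⧸ K) := by
  intro H hH x hx hxo
  obtain ⟨a, rfl⟩ := QuotientGroup.mk'_surjective K x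
  obtain ⟨n, hn, hn'⟩ := exists_lift (QuotientGroup.mk' K) σ a hxo
  set P := H.comap (QuotientGroup.mk' K)
  have hP : CoNat σ (Nat.card P) := by
    have h1 : Nat.card P = Nat.card H * Nat.card K := by
      rw [mul_comm]
      exact QuotientGroup.card_preimage_mk K (H : Set (G ⧸ K))
    intro p hp hd
    rw [h1] at hd
    exact (hp.dvd_mul.mp hd).elim (hH p hp) (hK p hp)
  rw [← hn'] at hx ⊢
  have hnorm : a ^ n ∈ Subgroup.normalizer (P : Set G) := by
    rw [Subgroup.mem_normalizer_iff] at hx ⊢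
    intro y
    simpa [P, Subgroup.mem_comap] using hx (QuotientGroup.mk' K y)
  have hc := Subgroup.mem_centralizer_iff.mp (h P hP _ hnorm hn)
  rw [Subgroup.mem_centralizer_iff]
  intro y hy
  obtain ⟨b, rfl⟩ := QuotientGroup.mk'_surjective K y
  rw [← map_mul, ← map_mul, hc b hy]

theorem closed_of_subsingleton [Subsingleton G] : Closed σ G :=
  ⟨⊤, fun x => ⟨fun _ => by rw [Subsingleton.elim x 1, orderOf_one]; exact piNat_one, fun _ => trivial⟩⟩

theorem closed_of_coNat [Finite G] (h : CoNat σ (Nat.card G)) : Closed σ G := by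
  refine ⟨⊥, fun x => ⟨fun hx => by rw [Subgroup.mem_bot.mp hx, orderOf_one]; exact piNat_one,
    fun hx => ?_⟩⟩
  rw [Subgroup.mem_bot, ← orderOf_eq_one_iff]
  exact Nat.eq_one_iff_not_exists_prime_dvd.mpr fun p hp hd =>
    h p hp (hd.trans (orderOf_dvd_natCard x)) (hx p hp hd)

theorem closed_of_piNat [Finite G] (h : PiNat σ (Nat.card G)) : Closed σ G :=
  ⟨⊤, fun x => ⟨fun _ => h.of_dvd (orderOf_dvd_natCard x), fun _ => trivial⟩⟩

/-- Minimal counterexamples are non-abelian simple. -/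
theorem closed_of_simple {X : ℕ → Prop} (hX : ∀ a b : ℕ, a ∣ b → X b → X a)
    (hsimp : ∀ (S : Type u) [Group S] [Finite S] [IsSimpleGroup S], (∃ a b : S, a * b ≠ b * a) →
      X (Nat.card S) → Homog σ S → Closed σ S) :
    ∀ (n : ℕ) (G : Type u) [Group G] [Finite G], Nat.card G = n → X n → Homog σ G → Closed σ G := by
  intro n
  induction n using Nat.strong_induction_on with
  | h n ih =>
    intro G _ _ hn hXn hhom
    have hsub : ∀ K : Subgroup G, K ≠ ⊤ → Closed σ K := fun K hK =>
      ih _ (hn ▸ lt_of_le_of_ne (Subgroup.card_le_card_group K)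
        fun he => hK (Subgroup.card_eq_iff_eq_top K |>.mp he)) K rfl
        (hX _ _ (hn ▸ Subgroup.card_subgroup_dvd_card K) hXn) (hhom.subgroup K)
    rcases subsingleton_or_nontrivial G with hs | hnt
    · exact closed_of_subsingleton
    by_cases hsimple : IsSimpleGroup G
    · by_cases hab : ∃ a b : G, a * b ≠ b * a
      · exact hsimp G hab (hn.symm ▸ hXn) hhom
      simp only [not_exists, not_not] at hab
      letI : CommGroup G := { (inferInstance : Group G) with mul_comm := hab }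
      have hp : (Nat.card G).Prime := IsSimpleGroup.prime_card
      by_cases hc : Nat.card G ∈ σ
      · exact closed_of_piNat fun p hp' hd => (Nat.prime_dvd_prime_iff_eq hp' hp).mp hd ▸ hc
      · exact closed_of_coNat fun p hp' hd => (Nat.prime_dvd_prime_iff_eq hp' hp).mp hd ▸ hc
    obtain ⟨K, hKn, hKb, hKt⟩ : ∃ K : Subgroup G, K.Normal ∧ K ≠ ⊥ ∧ K ≠ ⊤ := by
      by_contra hno
      exact hsimple ⟨fun N hN => by
        by_contra hne
        push Not at hne
        exact hno ⟨N, hN, hne.1, hne.2⟩⟩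
    have hquot : ∀ (L : Subgroup G) [L.Normal], L ≠ ⊥ → Homog σ (G ⧸ L) → Closed σ (G ⧸ L) := by
      intro L _ hL h
      haveI : Nontrivial L := (Subgroup.nontrivial_iff_ne_bot L).mpr hL
      have h1 := Subgroup.card_eq_card_quotient_mul_card_subgroup L
      have h2 : 1 < Nat.card L := Finite.one_lt_card
      refine ih _ ?_ (G ⧸ L) rfl (hX _ _ (hn ▸ h1 ▸ dvd_mul_right _ _) hXn) h
      rw [← hn, h1]
      exact lt_mul_of_one_lt_right Nat.card_pos h2
    obtain ⟨L₀, hL₀⟩ := hsub K hKt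
    set L := L₀.map K.subtype with hLdef
    have hLmem : ∀ x ∈ K, (x ∈ L ↔ PiNat σ (orderOf x)) := by
      intro x hx
      refine ⟨?_, fun h => ⟨⟨x, hx⟩, (hL₀ _).mpr (by rwa [Subgroup.orderOf_mk]), rfl⟩⟩
      rintro ⟨y, hy, rfl⟩
      rw [Subgroup.coe_subtype, Subgroup.orderOf_coe]
      exact (hL₀ y).mp hy
    by_cases hLb : L = ⊥
    · -- `K` is a `σ'`-group
      have hKc : CoNat σ (Nat.card K) := by
        intro p hp hd hpσ
        haveI := Fact.mk hp
        obtain ⟨y, hy⟩ := exists_prime_orderOf_dvd_card' (G := K) p hd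
        have h1 : (y : G) ∈ L := (hLmem _ y.2).mpr (by
          rw [Subgroup.orderOf_coe, hy]
          exact fun q hq hqd => (Nat.prime_dvd_prime_iff_eq hq hp).mp hqd ▸ hpσ)
        rw [hLb, Subgroup.mem_bot] at h1
        rw [← Subgroup.orderOf_coe, h1, orderOf_one] at hy
        exact hp.ne_one hy.symm
      by_cases hC : Subgroup.centralizer (K : Set G) = ⊤
      · exact closed_extension hhom K ⟨L₀, hL₀⟩ (hquot K hKb (homog_quotient_central hhom K hKc))
      · obtain ⟨M, hM⟩ := hsub _ hC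
        refine ⟨M.map (Subgroup.centralizer (K : Set G)).subtype, fun x => ⟨?_, fun hx => ?_⟩⟩
        · rintro ⟨y, hy, rfl⟩
          rw [Subgroup.coe_subtype, Subgroup.orderOf_coe]
          exact (hM y).mp hy
        · have hxC := hhom K hKc x (by rw [Subgroup.normalizer_eq_top]; trivial) hx
          exact ⟨⟨x, hxC⟩, (hM _).mpr (by rwa [Subgroup.orderOf_mk]), rfl⟩
    · haveI hLn : L.Normal := by
        refine ⟨fun x hx g => ?_⟩
        have hxK : x ∈ K := Subgroup.map_subtype_le _ hx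
        have hgK : g * x * g⁻¹ ∈ K := hKn.conj_mem x hxK g
        rw [hLmem _ hgK, show g * x * g⁻¹ = (MulAut.conj g).toMonoidHom x from rfl,
          orderOf_injective _ (MulAut.conj g).injective]
        exact (hLmem x hxK).mp hx
      have hLσ : PiNat σ (Nat.card L) :=
        piNat_card fun x hx => (hLmem x (Subgroup.map_subtype_le _ hx)).mp hx
      exact closed_extension hhom L (closed_of_piNat hLσ)
        (hquot L hLb fun H hH x hx hxo => centralizes_quotient hhom L hLσ H hH x hx hxo)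

/-- In a Suzuki group some `2`-element acts non-trivially on a subgroup of each odd prime order. -/
theorem model_not_homog {F : Type*} [Field F] [Fintype F] [CharP F 2] {m : ℕ} (hm : 1 ≤ m)
    (hF : Fintype.card F = 2 ^ (2 * m + 1)) (hh : Homog σ (CfsgLib.Suzuki.grp (CfsgLib.Suzuki.theta F m)))
    (h2 : 2 ∈ σ) {p : ℕ} (hp : p.Prime) (hpσ : p ∉ σ)
    (hpd : p ∣ Nat.card (CfsgLib.Suzuki.grp (CfsgLib.Suzuki.theta F m))) : False := by
  set T := CfsgLib.Suzuki.grp (CfsgLib.Suzuki.theta F m)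
  have hp2 : p ≠ 2 := fun h => hpσ (h ▸ h2)
  haveI := Fact.mk hp
  haveI hsimp : IsSimpleGroup T := CfsgLib.Suzuki.isSimpleGroup (CfsgLib.Suzuki.titsEndo_theta hm hF)
  obtain ⟨P⟩ : Nonempty (Sylow p T) := inferInstance
  have hPb : (P : Subgroup T) ≠ ⊥ := Sylow.ne_bot_of_dvd_card P hpd
  have hP2 : ¬ 2 ∣ Nat.card (P : Subgroup T) := by
    obtain ⟨k, hk⟩ := IsPGroup.iff_card.mp P.2
    rw [hk]
    exact fun h => hp2 ((Nat.prime_dvd_prime_iff_eq Nat.prime_two hp).mp
      (Nat.prime_two.dvd_of_dvd_pow h)).symm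
  -- Burnside
  obtain ⟨n, hnN, hnC⟩ : ∃ n ∈ Subgroup.normalizer ((P : Subgroup T) : Set T),
      n ∉ Subgroup.centralizer ((P : Subgroup T) : Set T) := by
    by_contra hno
    simp only [not_exists, not_and, not_not] at hno
    have hcompl := MonoidHom.ker_transferSylow_isComplement' P hno
    rcases (MonoidHom.transferSylow P hno).normal_ker.eq_bot_or_eq_top with h | h
    · rw [h] at hcompl
      have h1 := hcompl.card_mul_card
      rw [Subgroup.card_bot, one_mul] at h1
      have h2T : 2 ∣ Nat.card T := by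
        rw [CfsgLib.Suzuki.card_grp (CfsgLib.Suzuki.titsEndo_theta hm hF), Nat.card_eq_fintype_card, hF]
        exact (((dvd_pow_self 2 (by omega)).trans (dvd_pow_self _ two_ne_zero)).mul_right _).mul_right _
      exact hP2 (h1 ▸ h2T)
    · rw [h] at hcompl
      exact hPb (Subgroup.isComplement'_top_left.mp hcompl)
  have hPcyc : IsCyclic P := CfsgLib.Suzuki.sylow_odd_cyclic hm hF hp2 P
  obtain ⟨g, hg⟩ := IsCyclic.exists_generator (α := P)
  have hgP : ∀ y ∈ (P : Subgroup T), y ∈ Subgroup.zpowers (g : T) := fun y hy => by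
    obtain ⟨k, hk⟩ := hg ⟨y, hy⟩
    exact ⟨k, congrArg Subtype.val hk⟩
  have hg1 : (g : T) ≠ 1 := fun h => hPb ((Subgroup.eq_bot_iff_forall _).mpr fun y hy => by
    have := hgP y hy
    rwa [h, Subgroup.zpowers_one_eq_bot, Subgroup.mem_bot] at this)
  have hnu : ∀ x, x⁻¹ * (g : T) * x ∉ CfsgLib.Suzuki.uGrp (CfsgLib.Suzuki.titsEndo_theta hm hF) := by
    intro x hx
    obtain ⟨e, he⟩ := CfsgLib.Suzuki.orderOf_of_translation hm hF hx
    have he0 : e ≠ 0 := fun h0 => hg1 (orderOf_eq_one_iff.mp (by rw [he, h0, pow_zero]))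
    exact hP2 (((dvd_pow_self 2 he0).trans he.symm.dvd).trans
      (Subgroup.orderOf_dvd_natCard _ g.2))
  obtain ⟨hCc, hCC, hN⟩ := CfsgLib.Suzuki.torus_cases hm hF hg1 hnu
  set C := Subgroup.centralizer ({(g : T)} : Set T) with hC
  have hCodd : ¬ 2 ∣ Nat.card C := by
    have hk : Nat.card C ∈ ({2 ^ (2 * m + 1) - 1, 2 ^ (2 * m + 1) + 2 ^ (m + 1) + 1,
        2 ^ (2 * m + 1) - 2 ^ (m + 1) + 1} : Set ℕ) := by
      rcases hN with ⟨h, -⟩ | ⟨h | h, -⟩
      · exact Or.inl h
      · exact Or.inr (Or.inl h)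
      · exact Or.inr (Or.inr h)
    exact (Nat.not_even_iff_odd.mpr (CfsgLib.Suzuki.odd_of_mem_orders hm hk).1) ∘ even_iff_two_dvd.mpr
  have hnC' : n ∉ C := fun h => hnC (Subgroup.mem_centralizer_iff.mpr fun y hy => by
    obtain ⟨k, rfl⟩ := hgP y hy
    exact (Commute.zpow_left (Subgroup.mem_centralizer_singleton_iff.mp h).symm k).eq)
  set N := Subgroup.normalizer (C : Set T)
  have hnNC : n ∈ N := by
    rw [Subgroup.mem_normalizer_iff]
    have hconj : n * (g : T) * n⁻¹ ∈ (P : Subgroup T) := (Subgroup.mem_normalizer_iff.mp hnN _).mp g.2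
    have hgC : n * (g : T) * n⁻¹ ∈ C := by
      obtain ⟨k, hk⟩ := hgP _ hconj
      rw [← hk]
      exact C.zpow_mem (Subgroup.mem_centralizer_singleton_iff.mpr rfl) k
    have heq := hCC _ hgC fun h => hg1 (by simpa using h)
    intro y
    nth_rewrite 2 [← heq]
    rw [hC, Subgroup.mem_centralizer_singleton_iff, Subgroup.mem_centralizer_singleton_iff,
      show n * y * n⁻¹ * (n * (g : T) * n⁻¹) = n * (y * g) * n⁻¹ by group,
      show n * (g : T) * n⁻¹ * (n * y * n⁻¹) = n * (g * y) * n⁻¹ by group, mul_left_inj, mul_right_inj]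
  have hidx : (C.subgroupOf N).index ∣ 4 := by
    have hle : C ≤ N := Subgroup.le_normalizer
    have h1 : Nat.card (C.subgroupOf N) = Nat.card C :=
      Nat.card_congr (Subgroup.subgroupOfEquivOfLe hle).toEquiv
    have h3 := (C.subgroupOf N).card_mul_index
    rw [h1] at h3
    have hpos : 0 < Nat.card C := Nat.card_pos
    rcases hN with ⟨-, hN⟩ | ⟨-, hN⟩
    · rw [← h3, mul_comm 2] at hN
      have := Nat.le_of_mul_le_mul_left hN hpos
      have h0 : (C.subgroupOf N).index ≠ 0 := Subgroup.index_ne_zero_of_finite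
      interval_cases (C.subgroupOf N).index <;> first | exact absurd rfl h0 | norm_num
    · rw [← h3, mul_comm 4] at hN
      exact (Nat.eq_of_mul_eq_mul_left hpos hN).dvd
  have hn4 : n ^ 4 ∈ C := by
    haveI : (C.subgroupOf N).Normal := Subgroup.normal_in_normalizer
    obtain ⟨k, hk⟩ := hidx
    have h1 := Subgroup.pow_index_mem (C.subgroupOf N) (⟨n, hnNC⟩ : N)
    have h2 := (C.subgroupOf N).pow_mem h1 k
    rw [← pow_mul, ← hk] at h2
    exact h2
  -- the 2-part of `n`
  obtain ⟨a, b, hab, ha, hb⟩ := exists_split ({2} : Set ℕ) (orderOf n) (orderOf_pos n).ne'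
  have hcop : Nat.Coprime 4 b := by
    refine Nat.coprime_of_dvd fun q hq h1 h2 => hb q hq h2 ?_
    exact (Nat.prime_dvd_prime_iff_eq hq Nat.prime_two).mp (hq.dvd_of_dvd_pow (n := 2) (by norm_num; exact h1))
  have hny : n ^ b ∉ C := fun h => hnC' (by
    have h1 : n ^ (Nat.gcd 4 b) ∈ C := by
      obtain ⟨x, y⟩ := (⟨Nat.gcdA 4 b, Nat.gcdB 4 b⟩ : ℤ × ℤ)
      rw [← zpow_natCast, Nat.gcd_eq_gcd_ab, zpow_add, zpow_mul, zpow_mul, zpow_natCast, zpow_natCast]
      exact C.mul_mem (C.zpow_mem hn4 _) (C.zpow_mem h _)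
    rwa [hcop.gcd_eq_one, pow_one] at h1)
  apply hny
  have hPc : CoNat σ (Nat.card (P : Subgroup T)) := fun q hq hd => by
    obtain ⟨k, hk⟩ := IsPGroup.iff_card.mp P.2
    rw [hk] at hd
    exact (Nat.prime_dvd_prime_iff_eq hq hp).mp (hq.dvd_of_dvd_pow hd) ▸ hpσ
  have h1 := hh P hPc (n ^ b) (Subgroup.pow_mem _ hnN b) (by
    intro q hq hd
    have h3 : orderOf (n ^ b) ∣ a := orderOf_dvd_of_pow_eq_one (by
      rw [← pow_mul, mul_comm, ← hab, pow_orderOf_eq_one])
    have := ha q hq (hd.trans h3)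
    rw [Set.mem_singleton_iff] at this
    exact this ▸ h2)
  rw [hC, Subgroup.mem_centralizer_singleton_iff]
  exact ((Subgroup.mem_centralizer_iff.mp h1) (g : T) g.2).symm

end CfsgLib.PiHomogThree83
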