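import Cfsg.Agent.PiHomogThree83.Basic
import Cfsg.Prelude.Def_Sz

/-!
`π`-homogeneous groups of order prime to `3` (all primes of `π` odd) are `π'`-closed, given that their simple
sections are Suzuki groups.
-/

set_option autoImplicit false
set_option linter.style.haveILetI false

namespace CfsgLib.PiHomogThree83

open CfsgLib.PiClosed

universe u

/-- `π'`-closedness from the identification of the simple groups of order prime to `3`. -/
theorem pi_prime_closed {G : Type u} [Group G] [Finite G] (π : Set ℕ)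
    (hsz : ∀ (S : Type u) [Group S] [Finite S] [IsSimpleGroup S], (∃ a b : S, a * b ≠ b * a) →
      ¬ 3 ∣ Nat.card S → Cfsg.Lie.IsoSuzuki S)
    (hodd : ∀ p ∈ π, p.Prime ∧ p ≠ 2) (h3 : ¬ 3 ∣ Nat.card G)
    (hhom : ∀ H : Subgroup G, H ≠ ⊥ → (∀ p : ℕ, p.Prime → p ∣ Nat.card ↥H → p ∈ π) →
        ∀ p : ℕ, p.Prime → p ∣ (Subgroup.centralizer (H : Set G)).relIndex (Subgroup.normalizer (H : Set G)) →
          p ∈ π) :
    ∃ K : Subgroup G, ∀ x : G, x ∈ K ↔ ∀ p : ℕ, p.Prime → p ∣ orderOf x → p ∉ π := by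
  have hH : Homog πᶜ G := homog_of_relIndex fun H hb hH p hp hd hpc =>
    hpc (hhom H hb (fun q hq hqd => not_not.mp (hH q hq hqd)) p hp hd)
  refine closed_of_simple (σ := πᶜ) (X := fun n => ¬ 3 ∣ n) (fun a b hab hb ha => hb (ha.trans hab))
    (fun S _ _ _ hab hS3 hS => ?_) _ G rfl h3 hH
  by_cases hp : ∃ p : ℕ, p.Prime ∧ p ∣ Nat.card S ∧ p ∈ π
  · exfalso
    obtain ⟨p, hp, hpd, hpπ⟩ := hp
    obtain ⟨F, hF1, hF2, m, hm, hF, ⟨e⟩⟩ := hsz S hab hS3
    haveI := CfsgLib.Suzuki.charP_two hF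
    let e' := (e.trans (CfsgLib.Suzuki.lieSzEquiv hm hF).symm).trans
      (MulEquiv.subgroupCongr (CfsgLib.Suzuki.sz_eq (F := F) (m := m)))
    exact model_not_homog hm hF (homog_equiv e' hS) (fun h => (hodd 2 h).2 rfl) hp
      (fun h => h hpπ) (Nat.card_congr e'.toEquiv ▸ hpd)
  · exact closed_of_piNat fun q hq hd hqπ => hp ⟨q, hq, hd, hqπ⟩

end CfsgLib.PiHomogThree83
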